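import Cfsg.Agent.PrimeGraph57.Semidirect

/-!
The prime graphs of `SL(2,8)` and `PSL(2,7)`: three isolated vertices 2, 3, 7.
-/

set_option autoImplicit false

namespace CfsgLib.PrimeGraph57

open Matrix

theorem sl_pow_eq_one {F : Type*} [Field F] (x : Matrix.SpecialLinearGroup (Fin 2) F) (n : ℕ)
    (h : (x : Matrix (Fin 2) (Fin 2) F) ^ n = 1) : x ^ n = 1 := by
  apply Subtype.ext
  rw [Matrix.SpecialLinearGroup.coe_pow, h]
  rfl

theorem psl_pow_eq_one {F : Type*} [Field F] (x : Matrix.SpecialLinearGroup (Fin 2) F) (n : ℕ)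
    (c : F) (h : (x : Matrix (Fin 2) (Fin 2) F) ^ n = c • 1) :
    (QuotientGroup.mk' (Subgroup.center (Matrix.SpecialLinearGroup (Fin 2) F)) x) ^ n = 1 := by
  rw [← map_pow, QuotientGroup.mk'_apply, QuotientGroup.eq_one_iff]
  exact scalar_mem_center _ c (by rw [Matrix.SpecialLinearGroup.coe_pow, h])

theorem no_order_pq {G : Type*} [Group G] (x : G) (r k : ℕ) (hr : r.Prime) (h : x ^ r ^ k = 1)
    (p q : ℕ) (hp : p.Prime) (hq : q.Prime) (hpq : p ≠ q) : orderOf x ≠ p * q := by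
  intro e
  have hd := orderOf_dvd_of_pow_eq_one h
  rw [e] at hd
  exact hpq (((Nat.prime_dvd_prime_iff_eq hp hr).mp
    (hp.dvd_of_dvd_pow ((dvd_mul_right p q).trans hd))).trans
    ((Nat.prime_dvd_prime_iff_eq hq hr).mp
      (hq.dvd_of_dvd_pow ((dvd_mul_left q p).trans hd))).symm)

/-- A finite group whose elements have order dividing a power of 2, 3 or 7 and which contains
elements of orders 2, 3 and 7 has as prime graph three isolated vertices. -/
theorem three_isolated {G : Type*} [Group G] [Finite G]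
    (hall : ∀ x : G, ∃ r k : ℕ, (r = 2 ∨ r = 3 ∨ r = 7) ∧ x ^ r ^ k = 1)
    (hex : ∀ r : ℕ, r = 2 ∨ r = 3 ∨ r = 7 → ∃ x : G, x ≠ 1 ∧ x ^ r = 1) :
    (∀ p : ℕ, p.Prime → (p ∣ Nat.card G ↔ (p = 2 ∨ p = 3 ∨ p = 7))) ∧
      (∀ p q : ℕ, p.Prime → q.Prime → p ≠ q → ¬ ∃ g : G, orderOf g = p * q) := by
  have hprime : ∀ r : ℕ, r = 2 ∨ r = 3 ∨ r = 7 → r.Prime := by
    rintro r (rfl | rfl | rfl) <;> norm_num
  refine ⟨fun p hp => ⟨fun h => ?_, fun h => ?_⟩, ?_⟩
  · haveI := Fact.mk hp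
    obtain ⟨x, hx⟩ := exists_prime_orderOf_dvd_card' p h
    obtain ⟨r, k, hr, hx'⟩ := hall x
    have hd := orderOf_dvd_of_pow_eq_one hx'
    rw [hx] at hd
    rw [(Nat.prime_dvd_prime_iff_eq hp (hprime r hr)).mp (hp.dvd_of_dvd_pow hd)]
    exact hr
  · haveI := Fact.mk hp
    obtain ⟨x, hx1, hxp⟩ := hex p h
    have := orderOf_dvd_natCard x
    rwa [orderOf_eq_prime hxp hx1] at this
  · rintro p q hp hq hpq ⟨g, hg⟩
    obtain ⟨r, k, hr, hgr⟩ := hall g
    exact no_order_pq g r k (hprime r hr) hgr p q hp hq hpq hg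

theorem sl2_eight_three_isolated {K : Type*} [Field K] [Fintype K] [CharP K 2]
    (hK : Fintype.card K = 8) :
    (∀ p : ℕ, p.Prime →
      (p ∣ Nat.card (Matrix.SpecialLinearGroup (Fin 2) K) ↔ (p = 2 ∨ p = 3 ∨ p = 7))) ∧
      (∀ p q : ℕ, p.Prime → q.Prime → p ≠ q →
        ¬ ∃ g : Matrix.SpecialLinearGroup (Fin 2) K, orderOf g = p * q) := by
  classical
  apply three_isolated
  · intro g
    obtain ⟨n, hn, hU⟩ : ∃ n, (n = 2 ∨ n = 7 ∨ n = 9) ∧
        lucasU (g : Matrix (Fin 2) (Fin 2) K).trace n = 0 := by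
      set t := (g : Matrix (Fin 2) (Fin 2) K).trace
      rcases eq_or_ne t 0 with h0 | h0
      · exact ⟨2, Or.inl rfl, by simp [lucasU, h0]⟩
      · have h7 : t ^ 7 = 1 := by
          have := FiniteField.pow_card_sub_one_eq_one t h0
          rwa [hK] at this
        have h2 := char2_two_zero (F := K)
        have e7 : lucasU t 7 = t ^ 6 + t ^ 4 + 1 := by
          simp only [lucasU]
          linear_combination (-3 * t ^ 4 + 3 * t ^ 2 - 1) * h2
        have e9 : lucasU t 9 = t ^ 6 + t ^ 4 + t + 1 := by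
          simp only [lucasU]
          linear_combination t * h7 + (-4 * t ^ 6 + 7 * t ^ 4 - 5 * t ^ 2) * h2
        have hprod : lucasU t 7 * lucasU t 9 = 0 := by
          rw [e7, e9]
          linear_combination (t ^ 5 + t + 1) * h7 +
            (t ^ 5 + t + 1 + t ^ 10 + t ^ 6 + t ^ 4) * h2
        rcases mul_eq_zero.mp hprod with h | h
        · exact ⟨7, Or.inr (Or.inl rfl), h⟩
        · exact ⟨9, Or.inr (Or.inr rfl), h⟩
    have hscal : g ^ n = 1 := by
      obtain ⟨m, rfl⟩ : ∃ m, n = m + 1 := ⟨n - 1, by omega⟩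
      obtain ⟨c, hc, hg⟩ := sl2_pow_eq_scalar g m hU
      have hz := scalar_mem_center (g ^ (m + 1)) c hg
      rw [sl2_char2_center_eq_bot, Subgroup.mem_bot] at hz
      exact hz
    rcases hn with rfl | rfl | rfl
    · exact ⟨2, 1, Or.inl rfl, hscal⟩
    · exact ⟨7, 1, Or.inr (Or.inr rfl), hscal⟩
    · exact ⟨3, 2, Or.inr (Or.inl rfl), hscal⟩
  · have hone : ∀ x : Matrix.SpecialLinearGroup (Fin 2) K,
        (x : Matrix (Fin 2) (Fin 2) K) ≠ 1 → x ≠ 1 := fun x h e => h (by rw [e]; rfl)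
    rintro r (rfl | rfl | rfl)
    · haveI := Fact.mk Nat.prime_two
      obtain ⟨x, hx⟩ := exists_prime_orderOf_dvd_card' 2 (sl2_char2_two_dvd_card (F := K))
      have := pow_orderOf_eq_one x
      rw [hx] at this
      exact ⟨x, fun h => by simp [h] at hx, this⟩
    · refine ⟨⟨!![0, -1; 1, -1], by simp [Matrix.det_fin_two]⟩, hone _ ?_, ?_⟩
      · intro h
        have := congrFun (congrFun h 0) 0
        simp at this
      · refine sl_pow_eq_one _ _ ?_
        show (!![0, -1; 1, -1] : Matrix (Fin 2) (Fin 2) K) ^ 3 = 1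
        rw [pow_succ, pow_two]
        ext i j
        fin_cases i <;> fin_cases j <;> simp [Matrix.mul_apply, Fin.sum_univ_two]
    · obtain ⟨u, hu⟩ : ∃ u : Kˣ, u ≠ 1 := by
        haveI : Nontrivial Kˣ := Fintype.one_lt_card_iff_nontrivial.mp (by
          rw [Fintype.card_units, hK]; norm_num)
        exact exists_ne 1
      have h7 : (u : K) ^ 7 = 1 := by
        have := FiniteField.pow_card_sub_one_eq_one (u : K) u.ne_zero
        rwa [hK] at this
      refine ⟨⟨Matrix.diagonal ![(u : K), (↑u⁻¹ : K)],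
        by simp [Matrix.det_diagonal, Fin.prod_univ_two]⟩, hone _ ?_, ?_⟩
      · intro h
        have := congrFun (congrFun h 0) 0
        simp at this
        exact hu this
      · refine sl_pow_eq_one _ _ ?_
        show (Matrix.diagonal ![(u : K), (↑u⁻¹ : K)]) ^ 7 = 1
        rw [Matrix.diagonal_pow]
        rw [← Matrix.diagonal_one]
        congr 1
        ext i
        fin_cases i
        · simpa using h7
        · simp only [Fin.mk_one, Pi.pow_apply]
          simp [inv_pow, h7]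

theorem lucasU_seven : ∀ s : ZMod 7,
    lucasU s 2 = 0 ∨ lucasU s 3 = 0 ∨ lucasU s 4 = 0 ∨ lucasU s 7 = 0 := by
  simp only [lucasU]; decide

theorem psl2_seven_three_isolated {F : Type*} [Field F] [Fintype F] (hF : Fintype.card F = 7) :
    (∀ p : ℕ, p.Prime →
      (p ∣ Nat.card (Matrix.ProjectiveSpecialLinearGroup (Fin 2) F) ↔ (p = 2 ∨ p = 3 ∨ p = 7))) ∧
      (∀ p q : ℕ, p.Prime → q.Prime → p ≠ q →
        ¬ ∃ g : Matrix.ProjectiveSpecialLinearGroup (Fin 2) F, orderOf g = p * q) := by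
  haveI := Fact.mk (show Nat.Prime 7 by norm_num)
  have hchar : CharP F 7 := by
    obtain ⟨p, hpF⟩ := CharP.exists F
    haveI := hpF
    obtain ⟨n, hp, hn⟩ := FiniteField.card F p
    rw [hF] at hn
    have : p ∣ 7 := hn ▸ dvd_pow_self p n.ne_zero
    rw [Nat.prime_dvd_prime_iff_eq hp (by norm_num)] at this
    exact this ▸ hpF
  have h7 : (7 : F) = 0 := CharP.cast_eq_zero F 7
  have hsurj := QuotientGroup.mk'_surjective
    (Subgroup.center (Matrix.SpecialLinearGroup (Fin 2) F))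
  have hcen : ∀ x : Matrix.SpecialLinearGroup (Fin 2) F,
      (x : Matrix (Fin 2) (Fin 2) F) 0 1 ≠ 0 →
      QuotientGroup.mk' (Subgroup.center (Matrix.SpecialLinearGroup (Fin 2) F)) x ≠ 1 := by
    intro x hx h
    rw [QuotientGroup.mk'_apply, QuotientGroup.eq_one_iff] at h
    obtain ⟨c, -, hc⟩ := Matrix.SpecialLinearGroup.mem_center_iff.mp h
    apply hx
    rw [← hc]
    simp [Matrix.scalar_apply]
  apply three_isolated
  · intro y
    obtain ⟨g, rfl⟩ := hsurj y
    obtain ⟨n, hn, hU⟩ : ∃ n, (n = 2 ∨ n = 3 ∨ n = 4 ∨ n = 7) ∧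
        lucasU (g : Matrix (Fin 2) (Fin 2) F).trace n = 0 := by
      let e : ZMod 7 ≃+* F := ZMod.ringEquivOfPrime F (by norm_num) hF
      obtain ⟨s, hs⟩ := e.surjective (g : Matrix (Fin 2) (Fin 2) F).trace
      have hdec := lucasU_seven
      rw [← hs]
      have hmap : ∀ n, lucasU (e s) n = e (lucasU s n) := lucasU_map e.toRingHom s
      rcases hdec s with h | h | h | h
      · exact ⟨2, Or.inl rfl, by rw [hmap, h, map_zero]⟩
      · exact ⟨3, Or.inr (Or.inl rfl), by rw [hmap, h, map_zero]⟩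
      · exact ⟨4, Or.inr (Or.inr (Or.inl rfl)), by rw [hmap, h, map_zero]⟩
      · exact ⟨7, Or.inr (Or.inr (Or.inr rfl)), by rw [hmap, h, map_zero]⟩
    have hscal : (QuotientGroup.mk'
        (Subgroup.center (Matrix.SpecialLinearGroup (Fin 2) F)) g) ^ n = 1 := by
      obtain ⟨m, rfl⟩ : ∃ m, n = m + 1 := ⟨n - 1, by omega⟩
      obtain ⟨c, -, hg⟩ := sl2_pow_eq_scalar g m hU
      rw [← map_pow, QuotientGroup.mk'_apply, QuotientGroup.eq_one_iff]
      exact scalar_mem_center _ c hg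
    rcases hn with rfl | rfl | rfl | rfl
    · exact ⟨2, 1, Or.inl rfl, hscal⟩
    · exact ⟨3, 1, Or.inr (Or.inl rfl), hscal⟩
    · exact ⟨2, 2, Or.inl rfl, hscal⟩
    · exact ⟨7, 1, Or.inr (Or.inr rfl), hscal⟩
  · rintro r (rfl | rfl | rfl)
    · refine ⟨_, hcen ⟨!![0, -1; 1, 0], by simp [Matrix.det_fin_two]⟩ (by simp), ?_⟩
      refine psl_pow_eq_one _ _ (-1 : F) ?_
      show (!![0, -1; 1, 0] : Matrix (Fin 2) (Fin 2) F) ^ 2 = _
      rw [pow_two]
      ext i j
      fin_cases i <;> fin_cases j <;> simp [Matrix.mul_apply, Fin.sum_univ_two]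
    · refine ⟨_, hcen ⟨!![0, -1; 1, -1], by simp [Matrix.det_fin_two]⟩ (by simp), ?_⟩
      refine psl_pow_eq_one _ _ (1 : F) ?_
      show (!![0, -1; 1, -1] : Matrix (Fin 2) (Fin 2) F) ^ 3 = _
      rw [pow_succ, pow_two]
      ext i j
      fin_cases i <;> fin_cases j <;> simp [Matrix.mul_apply, Fin.sum_univ_two]
    · refine ⟨_, hcen ⟨!![1, 1; 0, 1], by simp [Matrix.det_fin_two]⟩ (by simp), ?_⟩
      refine psl_pow_eq_one _ _ (1 : F) ?_
      have hk : ∀ k : ℕ, (!![1, 1; 0, 1] : Matrix (Fin 2) (Fin 2) F) ^ k = !![1, (k : F); 0, 1] := by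
        intro k
        induction k with
        | zero => ext i j; fin_cases i <;> fin_cases j <;> simp
        | succ k ih =>
          rw [pow_succ, ih]
          ext i j
          fin_cases i <;> fin_cases j <;> simp [Matrix.mul_apply, Fin.sum_univ_two, add_comm]
      show (!![1, 1; 0, 1] : Matrix (Fin 2) (Fin 2) F) ^ 7 = (1 : F) • 1
      rw [hk 7]
      ext i j
      fin_cases i <;> fin_cases j <;> simp [h7]

end CfsgLib.PrimeGraph57
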