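import Mathlib

/-!
Arbitrarily large groups with the prime graph of a given group, as semidirect products with a
module in characteristic two on which elements of odd prime order act without fixed points;
and the facts about two by two matrices of determinant one needed to apply this.
-/

set_option autoImplicit false

namespace CfsgLib.PrimeGraph57

section Semi

variable {V L : Type*} [AddCommGroup V] [Group L] [DistribMulAction L V]

/-- The action of `L` on the multiplicative copy of `V`. -/
def actHom (L V : Type*) [AddCommGroup V] [Group L] [DistribMulAction L V] :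
    L →* MulAut (Multiplicative V) where
  toFun g := AddEquiv.toMultiplicative (DistribMulAction.toAddEquiv V g)
  map_one' := by
    ext v
    exact congrArg Multiplicative.ofAdd (one_smul L (Multiplicative.toAdd v))
  map_mul' g h := by
    ext v
    exact congrArg Multiplicative.ofAdd (mul_smul g h (Multiplicative.toAdd v))

theorem actHom_apply (g : L) (v : Multiplicative V) :
    Multiplicative.toAdd (actHom L V g v) = g • Multiplicative.toAdd v := rfl

theorem exists_small_model (G : Type*) [Group G] [Finite G] :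
    ∃ (H : Type) (_ : Group H) (_ : Finite H), Nonempty (H ≃* G) := by
  let e : {_i : Fin (Nat.card G) // True} ≃ G :=
    (Equiv.subtypeUnivEquiv fun _ => trivial).trans (Finite.equivFin G).symm
  letI : Group {_i : Fin (Nat.card G) // True} := e.group
  exact ⟨{_i : Fin (Nat.card G) // True}, inferInstance, inferInstance,
    ⟨{ e with map_mul' := fun x y => e.apply_symm_apply _ }⟩⟩

theorem order_pq_iff (hV2 : ∀ v : V, v + v = 0)
    (hfix : ∀ r : ℕ, r.Prime → r ≠ 2 → ∀ g : L, g ^ r = 1 → g ≠ 1 → ∀ v : V, g • v = v → v = 0)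
    (p q : ℕ) (hp : p.Prime) (hq : q.Prime) (hpq : p ≠ q) :
    (∃ g : L, orderOf g = p * q) ↔
      ∃ h : Multiplicative V ⋊[actHom L V] L, orderOf h = p * q := by
  constructor
  · rintro ⟨g, hg⟩
    exact ⟨SemidirectProduct.inr g,
      by rw [orderOf_injective _ SemidirectProduct.inr_injective, hg]⟩
  · rintro ⟨h, hh⟩
    refine ⟨h.right, ?_⟩
    have hd : orderOf h.right ∣ p * q := hh ▸ orderOf_map_dvd SemidirectProduct.rightHom h
    have h2 : ∀ k : Multiplicative V ⋊[actHom L V] L, k.right = 1 → k ^ 2 = 1 := by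
      intro k hk
      rw [sq]
      refine SemidirectProduct.ext ?_ ?_
      · rw [SemidirectProduct.mul_left, hk, map_one]
        exact hV2 (Multiplicative.toAdd k.left)
      · simp [hk]
    have key : ∀ r : ℕ, r.Prime → orderOf h.right = r → False := by
      intro r hr hord
      have hr1 : (h ^ r).right = 1 := by
        change SemidirectProduct.rightHom (h ^ r) = 1
        rw [map_pow]
        change h.right ^ r = 1
        rw [← hord, pow_orderOf_eq_one]
      rcases eq_or_ne r 2 with rfl | hr2
      · have := h2 _ hr1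
        rw [← pow_mul] at this
        have hdvd := orderOf_dvd_of_pow_eq_one this
        rw [hh] at hdvd
        have hp2 : p = 2 := (Nat.prime_dvd_prime_iff_eq hp Nat.prime_two).mp
          (hp.dvd_of_dvd_pow (n := 2) ((dvd_mul_right p q).trans hdvd))
        have hq2 : q = 2 := (Nat.prime_dvd_prime_iff_eq hq Nat.prime_two).mp
          (hq.dvd_of_dvd_pow (n := 2) ((dvd_mul_left q p).trans hdvd))
        exact hpq (hp2.trans hq2.symm)
      · have hleft : h.right • Multiplicative.toAdd (h ^ r).left
            = Multiplicative.toAdd (h ^ r).left := by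
          have hc := congrArg SemidirectProduct.left (Commute.self_pow h r).eq
          rw [SemidirectProduct.mul_left, SemidirectProduct.mul_left, hr1, map_one] at hc
          have := congrArg Multiplicative.toAdd hc
          rw [toAdd_mul, toAdd_mul, actHom_apply, MulAut.one_apply] at this
          exact add_left_cancel (this.trans (add_comm _ _))
        have hne : h.right ≠ 1 := by
          intro e; rw [e, orderOf_one] at hord; exact hr.one_lt.ne hord
        have h0 := hfix r hr hr2 h.right (hord ▸ pow_orderOf_eq_one _) hne _ hleft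
        have : h ^ r = 1 := SemidirectProduct.ext h0 hr1
        have hdvd := orderOf_dvd_of_pow_eq_one this
        rw [hh] at hdvd
        exact hpq (((Nat.prime_dvd_prime_iff_eq hp hr).mp ((dvd_mul_right p q).trans hdvd)).trans
          ((Nat.prime_dvd_prime_iff_eq hq hr).mp ((dvd_mul_left q p).trans hdvd)).symm)
    obtain ⟨⟨a, ha⟩, ⟨b, hb⟩, hab⟩ := exists_dvd_and_dvd_of_dvd_mul hd |>
      fun ⟨a, b, ha, hb, hab⟩ => (⟨⟨a, ha⟩, ⟨b, hb⟩, hab⟩ :
        ∃ (a : {a // a ∣ p}) (b : {b // b ∣ q}), orderOf h.right = a.1 * b.1)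
    rcases (Nat.dvd_prime hp).mp ha with rfl | rfl <;>
      rcases (Nat.dvd_prime hq).mp hb with rfl | rfl
    · exfalso
      have h1 : h.right = 1 := orderOf_eq_one_iff.mp hab
      have hdvd := orderOf_dvd_of_pow_eq_one (h2 h h1)
      rw [hh] at hdvd
      have := Nat.le_of_dvd two_pos hdvd
      nlinarith [hp.two_le, hq.two_le]
    · exact (key _ hq (by simpa using hab)).elim
    · exact (key _ hp (by simpa using hab)).elim
    · exact hab

/-- Arbitrarily large finite groups with the prime graph of `L'`. -/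
theorem large_group_same_graph {L' : Type*} [Group L'] [Finite V] [Finite L]
    (hV2 : ∀ v : V, v + v = 0)
    (hfix : ∀ r : ℕ, r.Prime → r ≠ 2 → ∀ g : L, g ^ r = 1 → g ≠ 1 → ∀ v : V, g • v = v → v = 0)
    (heven : 2 ∣ Nat.card L) (N : ℕ) (hN : N < Nat.card V)
    (hprimes : ∀ p : ℕ, p.Prime → (p ∣ Nat.card L' ↔ p ∣ Nat.card L))
    (hedges : ∀ p q : ℕ, p.Prime → q.Prime → p ≠ q →
      ((∃ g : L', orderOf g = p * q) ↔ (∃ g : L, orderOf g = p * q))) :
    ∃ (H : Type) (_ : Group H) (_ : Finite H), N < Nat.card H ∧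
      ((∀ p : ℕ, p.Prime → (p ∣ Nat.card L' ↔ p ∣ Nat.card H)) ∧
      (∀ p q : ℕ, p.Prime → q.Prime → p ≠ q →
        ((∃ g : L', orderOf g = p * q) ↔ (∃ g : H, orderOf g = p * q)))) := by
  classical
  haveI : Finite (Multiplicative V ⋊[actHom L V] L) :=
    Finite.of_equiv _ SemidirectProduct.equivProd.symm
  obtain ⟨H, gH, fH, ⟨me⟩⟩ := exists_small_model (Multiplicative V ⋊[actHom L V] L)
  have hcard : Nat.card H = Nat.card V * Nat.card L := by
    rw [Nat.card_congr me.toEquiv, SemidirectProduct.card, Nat.card_congr Multiplicative.toAdd]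
  refine ⟨H, gH, fH, ?_, ?_, ?_⟩
  · rw [hcard]
    exact lt_of_lt_of_le hN (Nat.le_mul_of_pos_right _ Nat.card_pos)
  · intro p hp
    rw [hprimes p hp, hcard]
    refine ⟨fun h => Dvd.dvd.mul_left h _, fun h => ?_⟩
    rcases hp.dvd_mul.mp h with h' | h'
    · haveI := Fact.mk hp
      have hV : Nat.card (Multiplicative V) = Nat.card V := Nat.card_congr Multiplicative.toAdd
      rw [← hV] at h'
      obtain ⟨x, hx⟩ := exists_prime_orderOf_dvd_card' p h'
      have h22 : x ^ 2 = 1 := by rw [sq]; exact hV2 (Multiplicative.toAdd x)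
      have := orderOf_dvd_of_pow_eq_one h22
      rw [hx, Nat.prime_dvd_prime_iff_eq hp Nat.prime_two] at this
      exact this ▸ heven
    · exact h'
  · intro p q hp hq hpq
    rw [hedges p q hp hq hpq, order_pq_iff hV2 hfix p q hp hq hpq]
    constructor
    · rintro ⟨g, hg⟩
      exact ⟨me.symm g, by rw [← hg]; exact me.symm.orderOf_eq g⟩
    · rintro ⟨g, hg⟩
      exact ⟨me g, by rw [← hg]; exact me.orderOf_eq g⟩

end Semi

section SL2

open Matrix

variable {F : Type*} [Field F]

/-- Coefficients of the powers of a two by two matrix of determinant one and trace `t`. -/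
def lucasU {R : Type*} [CommRing R] (t : R) : ℕ → R
  | 0 => 0
  | 1 => 1
  | n + 2 => t * lucasU t (n + 1) - lucasU t n

theorem lucasU_map {R K : Type*} [CommRing R] [CommRing K] (e : R →+* K) (t : R) :
    ∀ n, lucasU (e t) n = e (lucasU t n)
  | 0 => by simp [lucasU]
  | 1 => by simp [lucasU]
  | n + 2 => by
    simp [lucasU, lucasU_map e t (n + 1), lucasU_map e t n]

theorem sl2_sq (g : Matrix (Fin 2) (Fin 2) F) (hd : g.det = 1) :
    g * g = g.trace • g - 1 := by
  rw [Matrix.det_fin_two] at hd
  ext i j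
  fin_cases i <;> fin_cases j <;>
    simp [Matrix.mul_apply, Fin.sum_univ_two, Matrix.trace_fin_two]
  · linear_combination -hd
  · ring
  · ring
  · linear_combination -hd

theorem sl2_pow (g : Matrix (Fin 2) (Fin 2) F) (hd : g.det = 1) (n : ℕ) :
    g ^ (n + 1) = lucasU g.trace (n + 1) • g - lucasU g.trace n • 1 := by
  induction n with
  | zero => simp [lucasU]
  | succ n ih =>
    rw [pow_succ, ih, sub_mul, smul_mul_assoc, smul_mul_assoc, one_mul, sl2_sq g hd, smul_sub,
      smul_smul, show lucasU g.trace (n + 1 + 1)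
        = g.trace * lucasU g.trace (n + 1) - lucasU g.trace n from rfl, sub_smul, mul_comm]
    abel

theorem sl2_pow_eq_scalar (g : Matrix.SpecialLinearGroup (Fin 2) F) (n : ℕ)
    (h : lucasU (g : Matrix (Fin 2) (Fin 2) F).trace (n + 1) = 0) :
    ∃ c : F, c ^ 2 = 1 ∧ ((g ^ (n + 1) : Matrix.SpecialLinearGroup (Fin 2) F) :
      Matrix (Fin 2) (Fin 2) F) = c • 1 := by
  refine ⟨-lucasU (g : Matrix (Fin 2) (Fin 2) F).trace n, ?_, ?_⟩
  · have h1 := congrArg Matrix.det (sl2_pow _ g.2 n)
    rw [h, zero_smul, zero_sub, ← neg_smul, Matrix.det_pow, g.2, one_pow, Matrix.det_smul,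
      Matrix.det_one, mul_one, Fintype.card_fin] at h1
    exact h1.symm
  · rw [Matrix.SpecialLinearGroup.coe_pow, sl2_pow _ g.2 n, h, zero_smul, zero_sub, neg_smul]

theorem scalar_mem_center (g : Matrix.SpecialLinearGroup (Fin 2) F) (c : F)
    (h : (g : Matrix (Fin 2) (Fin 2) F) = c • 1) :
    g ∈ Subgroup.center (Matrix.SpecialLinearGroup (Fin 2) F) := by
  rw [Subgroup.mem_center_iff]
  intro x
  apply Subtype.ext
  simp [h]

variable [CharP F 2]

theorem char2_two_zero : (2 : F) = 0 := CharTwo.two_eq_zero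

theorem sl2_char2_fixed (g : Matrix.SpecialLinearGroup (Fin 2) F) (v : Fin 2 → F) (hv : v ≠ 0)
    (h : (g : Matrix (Fin 2) (Fin 2) F) *ᵥ v = v) : g ^ 2 = 1 := by
  have hdet : ((g : Matrix (Fin 2) (Fin 2) F) - 1).det = 0 :=
    Matrix.exists_mulVec_eq_zero_iff.mp ⟨v, hv, by rw [Matrix.sub_mulVec, h, Matrix.one_mulVec, sub_self]⟩
  have hd := g.2
  rw [Matrix.det_fin_two] at hd hdet
  simp at hdet
  have htr : (g : Matrix (Fin 2) (Fin 2) F).trace = 0 := by
    rw [Matrix.trace_fin_two]
    linear_combination (-1 : F) * hdet + hd + char2_two_zero (F := F)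
  apply Subtype.ext
  rw [Matrix.SpecialLinearGroup.coe_pow, sq, sl2_sq _ g.2, htr, zero_smul, zero_sub,
    CharTwo.neg_eq]
  rfl

theorem sl2_char2_two_dvd_card [Finite F] :
    2 ∣ Nat.card (Matrix.SpecialLinearGroup (Fin 2) F) := by
  let g : Matrix.SpecialLinearGroup (Fin 2) F := ⟨!![1, 1; 0, 1], by simp [Matrix.det_fin_two]⟩
  have hg1 : g ≠ 1 := fun h => by
    have := congrFun (congrFun (congrArg Subtype.val h) 0) 1
    simp [g] at this
  have hg2 : g ^ 2 = 1 := sl2_char2_fixed g ![1, 0]
    (fun h => one_ne_zero (congrFun h 0)) (by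
      ext i; fin_cases i <;> simp [g, Matrix.mulVec, dotProduct, Fin.sum_univ_two])
  have := orderOf_dvd_natCard g
  rwa [orderOf_eq_prime hg2 hg1] at this

/-- The natural module repeated `m` times. -/
@[reducible] def natModAction (F : Type*) [Field F] (m : ℕ) :
    DistribMulAction (Matrix.SpecialLinearGroup (Fin 2) F) (Fin m → Fin 2 → F) where
  smul g v := fun i => (g : Matrix (Fin 2) (Fin 2) F) *ᵥ v i
  one_smul v := funext fun i => by
    show ((1 : Matrix.SpecialLinearGroup (Fin 2) F) : Matrix (Fin 2) (Fin 2) F) *ᵥ v i = v i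
    rw [Matrix.SpecialLinearGroup.coe_one, Matrix.one_mulVec]
  mul_smul g h v := funext fun i => by
    show ((g * h : Matrix.SpecialLinearGroup (Fin 2) F) : Matrix (Fin 2) (Fin 2) F) *ᵥ v i = _
    rw [Matrix.SpecialLinearGroup.coe_mul, ← Matrix.mulVec_mulVec]
    rfl
  smul_zero g := funext fun i => Matrix.mulVec_zero _
  smul_add g v w := funext fun i => Matrix.mulVec_add _ _ _

theorem sl2_large_group_same_graph [Fintype F] {L' : Type*} [Group L'] (N : ℕ)
    (hprimes : ∀ p : ℕ, p.Prime →
      (p ∣ Nat.card L' ↔ p ∣ Nat.card (Matrix.SpecialLinearGroup (Fin 2) F)))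
    (hedges : ∀ p q : ℕ, p.Prime → q.Prime → p ≠ q → ((∃ g : L', orderOf g = p * q) ↔
      (∃ g : Matrix.SpecialLinearGroup (Fin 2) F, orderOf g = p * q))) :
    ∃ (H : Type) (_ : Group H) (_ : Finite H), N < Nat.card H ∧
      ((∀ p : ℕ, p.Prime → (p ∣ Nat.card L' ↔ p ∣ Nat.card H)) ∧
      (∀ p q : ℕ, p.Prime → q.Prime → p ≠ q →
        ((∃ g : L', orderOf g = p * q) ↔ (∃ g : H, orderOf g = p * q)))) := by
  letI := natModAction F N
  refine large_group_same_graph (V := Fin N → Fin 2 → F) ?_ ?_ sl2_char2_two_dvd_card N ?_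
    hprimes hedges
  · intro v; funext i j; exact CharTwo.add_self_eq_zero _
  · intro r hr hr2 g hg hg1 v hv
    funext i
    by_contra hvi
    have h2 := sl2_char2_fixed g (v i) hvi (congrFun hv i)
    apply hg1
    have hgcd : g ^ Nat.gcd 2 r = 1 := pow_gcd_eq_one.mpr ⟨h2, hg⟩
    rwa [(Nat.coprime_primes Nat.prime_two hr).mpr (Ne.symm hr2), pow_one] at hgcd
  · simp only [Nat.card_fun, Nat.card_fin]
    have h2 : 2 ≤ Nat.card F ^ 2 := by
      have := Finite.one_lt_card (α := F)
      nlinarith
    exact lt_of_lt_of_le N.lt_two_pow_self (Nat.pow_le_pow_left h2 N)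

theorem sl2_char2_center_eq_bot :
    Subgroup.center (Matrix.SpecialLinearGroup (Fin 2) F) = ⊥ := by
  rw [Subgroup.eq_bot_iff_forall]
  intro g hg
  obtain ⟨c, hc, hgc⟩ := Matrix.SpecialLinearGroup.mem_center_iff.mp hg
  have : c = 1 := by
    rw [Fintype.card_fin] at hc
    have h0 : (c - 1) ^ 2 = 0 := by
      linear_combination hc + (1 - c) * char2_two_zero (F := F)
    exact sub_eq_zero.mp (sq_eq_zero_iff.mp h0)
  subst this
  apply Subtype.ext
  rw [← hgc, map_one]
  rfl

end SL2

end CfsgLib.PrimeGraph57
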